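import Cfsg.Agent.Lib.SUPres.Base.Instances
import Cfsg.Agent.Lib.SUPres.Base.SU33Data

/-!
A presentation of a small special unitary group by tables.
-/

set_option autoImplicit false
set_option maxRecDepth 100000
set_option maxHeartbeats 2000000
set_option linter.unusedSectionVars false

namespace CfsgLib.SUPres.Base

open CfsgLib.SUAmalgam CfsgLib.ClassicalForms
open CfsgLib.ShortPres (HasPres)

universe u

variable {F : Type u} [Field F] [Finite F]

/-- A presentation of `SU₃(3)`. -/
theorem su_three_three (hF : Nat.card F = 3 ^ 2) : HasPres (SUg 3 F 3) 3 SU33.rels.length := by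
  obtain ⟨S⟩ := nonempty_setup_three hF
  have hg : P3.gensOK 3 SU33.gens = true := by decide +kernel
  have hlet3 : ∀ e ∈ SU33.tab3.tree, e.2 < 2 * SU33.tab3.j := by decide +kernel
  have l2 := S.card_two_ge hg (o := 8) (T := SU33.tab2) rfl (by decide +kernel) (by decide +kernel)
  have l3 := S.card_upto_ge hg (B := SU33.basisB) (Bi := SU33.basisBi) (C := [true, false, false])
    (V := SU33.vecs3) (T := SU33.tab3) hlet3 (by decide +kernel)
  have hmem : List.replicate 8 0 ∈ SU33.rels := by decide +kernel
  have hrels : ∀ r ∈ SU33.rels, ∀ x ∈ r, x < 2 * 3 := by decide +kernel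
  have ok2 : SU33.tab2.ok SU33.rels = true := by decide +kernel
  have ok3 : SU33.tab3.ok SU33.rels = true := by decide +kernel
  have hr : P3.relsOK 3 SU33.gens SU33.rels = true := by decide +kernel
  refine S.hasPres_of_bounds hg (rels := SU33.rels) hr (a := 3) (N := 6048) hrels
    (upper_three (rels := SU33.rels) (o := 8) (T2 := SU33.tab2) (T3 := SU33.tab3)
      (by norm_num) hmem rfl rfl ok2 ok3 (by decide +kernel)) ?_ ?_
  · exact le_trans (le_of_eq (by decide +kernel)) ((Nat.mul_le_mul_right _ l2).trans l3)
  · show Nat.card (SUg 3 F 3) ≤ _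
    refine le_of_eq (card_su_small hF (by decide) fun g hg' => ?_)
    rw [card_gu hF 3] at hg'
    norm_num [Finset.prod_range_succ] at hg' ⊢
    omega

end CfsgLib.SUPres.Base
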