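import Cfsg.Agent.Lib.SUPres.Base.Instances
import Cfsg.Agent.Lib.SUPres.Base.SU35Data

/-!
A presentation of a small special unitary group by tables.
-/

set_option autoImplicit false
set_option maxRecDepth 100000
set_option maxHeartbeats 2000000
set_option linter.unusedSectionVars false

namespace CfsgLib.SUPres.Base

open CfsgLib.SUAmalgam CfsgLib.ClassicalForms
open CfsgLib.ShortPres (HasPres)

universe u

variable {F : Type u} [Field F] [Finite F]

/-- A presentation of `SU₃(5)`. -/
theorem su_three_five (hF : Nat.card F = 5 ^ 2) : HasPres (SUg 3 F 5) 3 SU35.rels.length := by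
  obtain ⟨S⟩ := nonempty_setup_five hF
  have hg : P5.gensOK 3 SU35.gens = true := by decide +kernel
  have hlet3 : ∀ e ∈ SU35.tab3.tree, e.2 < 2 * SU35.tab3.j := by decide +kernel
  have l2 := S.card_two_ge hg (o := 24) (T := SU35.tab2) rfl (by decide +kernel) (by decide +kernel)
  have l3 := S.card_upto_ge hg (B := SU35.basisB) (Bi := SU35.basisBi) (C := [true, false, false])
    (V := SU35.vecs3) (T := SU35.tab3) hlet3 (by decide +kernel)
  have hmem : List.replicate 24 0 ∈ SU35.rels := by decide +kernel
  have hrels : ∀ r ∈ SU35.rels, ∀ x ∈ r, x < 2 * 3 := by decide +kernel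
  have ok2 : SU35.tab2.ok SU35.rels = true := by decide +kernel
  have ok3 : SU35.tab3.ok SU35.rels = true := by decide +kernel
  have hr : P5.relsOK 3 SU35.gens SU35.rels = true := by decide +kernel
  refine S.hasPres_of_bounds hg (rels := SU35.rels) hr (a := 3) (N := 378000) hrels
    (upper_three (rels := SU35.rels) (o := 24) (T2 := SU35.tab2) (T3 := SU35.tab3)
      (by norm_num) hmem rfl rfl ok2 ok3 (by decide +kernel)) ?_ ?_
  · exact le_trans (le_of_eq (by decide +kernel)) ((Nat.mul_le_mul_right _ l2).trans l3)
  · show Nat.card (SUg 3 F 5) ≤ _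
    refine le_of_eq (card_su_small hF (by decide) fun g hg' => ?_)
    rw [card_gu hF 3] at hg'
    norm_num [Finset.prod_range_succ] at hg' ⊢
    omega

end CfsgLib.SUPres.Base
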