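import Cfsg.Agent.Lib.SUPres.Base.Instances
import Cfsg.Agent.Lib.SUPres.Base.SU42Data

/-!
A presentation of a small special unitary group by tables.
-/

set_option autoImplicit false
set_option maxRecDepth 100000
set_option maxHeartbeats 2000000
set_option linter.unusedSectionVars false

namespace CfsgLib.SUPres.Base

open CfsgLib.SUAmalgam CfsgLib.ClassicalForms
open CfsgLib.ShortPres (HasPres)

universe u

variable {F : Type u} [Field F] [Finite F]

/-- A presentation of `SU₄(2)`. -/
theorem su_four_two (hF : Nat.card F = 2 ^ 2) : HasPres (SUg 4 F 2) 4 SU42.rels.length := by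
  obtain ⟨S⟩ := nonempty_setup_two hF
  have hg : P2.gensOK 4 SU42.gens = true := by decide +kernel
  have hlet3 : ∀ e ∈ SU42.tab3.tree, e.2 < 2 * SU42.tab3.j := by decide +kernel
  have hlet4 : ∀ e ∈ SU42.tab4.tree, e.2 < 2 * SU42.tab4.j := by decide +kernel
  have l2 := S.card_two_ge hg (o := 5) (T := SU42.tab2) rfl (by decide +kernel) (by decide +kernel)
  have l3 := S.card_upto_ge hg (B := SU42.basisB) (Bi := SU42.basisBi) (C := [false, false, true, true])
    (V := SU42.vecs3) (T := SU42.tab3) hlet3 (by decide +kernel)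
  have l4 := S.card_upto_ge hg (B := SU42.basisB) (Bi := SU42.basisBi) (C := [true, true, false, false])
    (V := SU42.vecs4) (T := SU42.tab4) hlet4 (by decide +kernel)
  have hmem : List.replicate 5 0 ∈ SU42.rels := by decide +kernel
  have hrels : ∀ r ∈ SU42.rels, ∀ x ∈ r, x < 2 * 4 := by decide +kernel
  have ok2 : SU42.tab2.ok SU42.rels = true := by decide +kernel
  have ok3 : SU42.tab3.ok SU42.rels = true := by decide +kernel
  have ok4 : SU42.tab4.ok SU42.rels = true := by decide +kernel
  have hr : P2.relsOK 4 SU42.gens SU42.rels = true := by decide +kernel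
  refine S.hasPres_of_bounds hg (rels := SU42.rels) hr (a := 4) (N := 25920) hrels
    (upper_four (rels := SU42.rels) (o := 5) (T2 := SU42.tab2) (T3 := SU42.tab3) (T4 := SU42.tab4)
      (by norm_num) hmem rfl rfl rfl ok2 ok3 ok4 (by decide +kernel)) ?_ ?_
  · exact le_trans (le_of_eq (by decide +kernel))
      ((Nat.mul_le_mul_right _ ((Nat.mul_le_mul_right _ l2).trans l3)).trans l4)
  · show Nat.card (SUg 4 F 2) ≤ _
    refine le_of_eq (card_su_small hF (by decide) fun g hg' => ?_)
    rw [card_gu hF 4] at hg'
    norm_num [Finset.prod_range_succ] at hg' ⊢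
    omega

end CfsgLib.SUPres.Base
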