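import Cfsg.Agent.Lib.SUPres.Base.Cert

/-! Two generators of two small unitary groups, and a table for the alternating group of degree five. -/

set_option autoImplicit false

namespace CfsgLib.SUPres.Base.Pair

/-- Two generators of `SU₃(2)`. -/
def gens32 : List (List ℕ) := [
  [1, 2, 2, 1, 3, 1, 2, 2, 1],
  [2, 3, 2, 1, 3, 3, 2, 2, 3]]

/-- Representatives modulo the first. -/
def tree32 : List (ℕ × ℕ) := [(0, 2), (0, 3), (1, 0), (1, 1), (1, 2), (2, 0), (2, 1), (3, 0), (3, 2), (3, 3), (4, 2), (5, 0), (6, 0), (6, 2), (7, 2), (7, 3), (9, 2)]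

/-- Two generators of `SU₃(3)`. -/
def gens33 : List (List ℕ) := [
  [0, 1, 0, 6, 0, 0, 0, 0, 6],
  [7, 2, 2, 3, 6, 8, 1, 5, 2]]

/-- Words in them for three generators. -/
def words33 : List (List ℕ) := [[0], [0, 0, 2, 0, 0, 0, 3, 1], [0, 2, 1, 1, 1, 3, 1, 1, 2]]

/-- Images of the generators of `A₅`. -/
def perm5 : List (List ℕ) := [[1, 2, 3, 4, 0], [0, 4, 1, 3, 2]]

/-- Relators of `A₅`. -/
def rels5 : List (List ℕ) := [[0, 0, 0, 0, 0], [2, 2, 2], [0, 2, 0, 2]]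

/-- Cosets of a cyclic subgroup of order five. -/
def tab5 : Tab where
  n := 12
  j := 2
  act := [[0, 0, 1, 2], [2, 3, 2, 0], [4, 1, 0, 1], [1, 5, 6, 4], [5, 2, 3, 6], [3, 4, 7, 8], [8, 7, 4, 3], [6, 9, 8, 5], [10, 6, 5, 7], [7, 10, 11, 10], [9, 8, 9, 11], [11, 11, 10, 9]]
  tree := [(0, 2), (0, 3), (1, 1), (2, 0), (3, 1), (3, 2), (5, 2), (5, 3), (7, 1), (8, 0), (9, 2)]
  deds := [(2, 1, 2), (8, 1, 2), (2, 2, 3), (3, 2, 2), (8, 2, 3), (9, 2, 2), (5, 0, 3), (4, 1, 2), (10, 1, 2), (6, 2, 3), (9, 0, 3), (11, 2, 3)]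

end CfsgLib.SUPres.Base.Pair
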