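import Cfsg.Agent.Lib.SUPres.Base.Instances
import Cfsg.Agent.Lib.SLnPres.Perm
import Cfsg.Agent.Lib.SUPres.Base.PairData
import Cfsg.Agent.Lib.SUPres.Base.SU33Data

/-!
Two generators of `SU₃(2)` and of `SU₃(3)`, and a three-relator presentation of the alternating group of degree five.
-/

set_option autoImplicit false
set_option maxRecDepth 100000
set_option linter.unusedSectionVars false

namespace CfsgLib.SUPres.Base

open CfsgLib.SUAmalgam CfsgLib.ClassicalForms Equiv
open CfsgLib.ShortPres (HasPres)

universe u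

variable {F : Type u} [Field F] [Finite F]

theorem upto_two_eq {W : Type*} [Group W] (g : ℕ → W) : upto g 2 = Subgroup.closure {g 0, g 1} := by
  unfold upto
  congr 1
  ext w
  constructor
  · rintro ⟨i, hi, rfl⟩
    simp only [Set.mem_ofPred_eq] at hi
    rcases (show i = 0 ∨ i = 1 by omega) with rfl | rfl <;> simp
  · rintro (rfl | rfl)
    exacts [⟨0, by simp, rfl⟩, ⟨1, by simp, rfl⟩]

theorem wv_mem_upto {W : Type*} [Group W] (g : ℕ → W) {j : ℕ} {w : List ℕ} (h : ∀ x ∈ w, x < 2 * j) :
    wv g w ∈ upto g j :=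
  Subgroup.list_prod_mem _ fun y hy => by
    obtain ⟨x, hx, rfl⟩ := List.mem_map.1 hy
    exact lv_mem g (h x hx)

/-- `SU₃(2)` has two generators. -/
theorem su_three_two_gens (hF : Nat.card F = 2 ^ 2) :
    ∃ g₁ g₂ : SUg 3 F 2, Subgroup.closure ({g₁, g₂} : Set (SUg 3 F 2)) = ⊤ := by
  obtain ⟨S⟩ := nonempty_setup_two hF
  have hg : P2.gensOK 3 Pair.gens32 = true := by decide +kernel
  have l2 := S.card_two_ge hg (o := 12) (T := ⟨18, 2, [], Pair.tree32, []⟩) rfl (by decide +kernel)
    (by decide +kernel)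
  have hcard : Nat.card (SUg 3 F 2) = 216 := card_su_small hF (by decide) fun g hg' => by
    rw [card_gu hF 3] at hg'
    norm_num [Finset.prod_range_succ] at hg' ⊢
    omega
  refine ⟨S.gM 3 Pair.gens32 0, S.gM 3 Pair.gens32 1, (upto_two_eq (S.gM 3 Pair.gens32)).symm.trans ?_⟩
  exact Subgroup.eq_top_of_card_eq _ (le_antisymm (Subgroup.card_le_card_group _)
    (hcard.le.trans (le_trans (le_of_eq (by decide +kernel)) l2)))

/-- `SU₃(3)` has two generators. -/
theorem su_three_three_gens (hF : Nat.card F = 3 ^ 2) :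
    ∃ g₁ g₂ : SUg 3 F 3, Subgroup.closure ({g₁, g₂} : Set (SUg 3 F 3)) = ⊤ := by
  obtain ⟨S⟩ := nonempty_setup_three hF
  have hg : P3.gensOK 3 SU33.gens = true := by decide +kernel
  have hp : P3.gensOK 3 Pair.gens33 = true := by decide +kernel
  have hw : ∀ i < 3, P3.evalW 3 Pair.gens33 (Pair.words33.getD i []) = SU33.gens.getD i (Prm.oneM 3) := by
    decide +kernel
  have hlet : ∀ i < 3, ∀ x ∈ Pair.words33.getD i [], x < 2 * 2 := by decide +kernel
  have hlet3 : ∀ e ∈ SU33.tab3.tree, e.2 < 2 * SU33.tab3.j := by decide +kernel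
  have l2 := S.card_two_ge hg (o := 8) (T := SU33.tab2) rfl (by decide +kernel) (by decide +kernel)
  have l3 := S.card_upto_ge hg (B := SU33.basisB) (Bi := SU33.basisBi) (C := [true, false, false])
    (V := SU33.vecs3) (T := SU33.tab3) hlet3 (by decide +kernel)
  have hcard : Nat.card (SUg 3 F 3) = 6048 := card_su_small hF (by decide) fun g hg' => by
    rw [card_gu hF 3] at hg'
    norm_num [Finset.prod_range_succ] at hg' ⊢
    omega
  have htop : upto (S.gM 3 SU33.gens) 3 = ⊤ := Subgroup.eq_top_of_card_eq _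
    (le_antisymm (Subgroup.card_le_card_group _) (hcard.le.trans
      (le_trans (le_of_eq (by decide +kernel)) ((Nat.mul_le_mul_right _ l2).trans l3))))
  refine ⟨S.gM 3 Pair.gens33 0, S.gM 3 Pair.gens33 1, (upto_two_eq (S.gM 3 Pair.gens33)).symm.trans ?_⟩
  refine top_le_iff.1 (htop.symm.le.trans ?_)
  refine (Subgroup.closure_le _).2 ?_
  rintro _ ⟨i, hi, rfl⟩
  simp only [Set.mem_ofPred_eq] at hi
  have e : S.gM 3 SU33.gens i = wv (S.gM 3 Pair.gens33) (Pair.words33.getD i []) := by
    refine Subtype.ext (Subtype.ext ?_)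
    show mat (S.gM 3 SU33.gens i) = mat _
    rw [S.mat_gM hg, S.mat_wv hp, hw i hi]
  rw [SetLike.mem_coe, e]
  exact wv_mem_upto _ (hlet i hi)

/-- Three relators present the alternating group of degree five. -/
theorem alt_five_three : HasPres ↥(alternatingGroup (Fin 5)) 2 3 := by
  let A : Perm (Fin 5) := finRotate 5
  let B : Perm (Fin 5) := SLnPres.cyc3 1 4 2
  let e : ℕ → Fin 2 := fun i => if i = 0 then 0 else 1
  let φ : ℕ → FreeGroup (Fin 2) := fun i => FreeGroup.of (e i)
  let τ : FreeGroup (Fin 2) →* Perm (Fin 5) := FreeGroup.lift ![A, B]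
  let g : ℕ → Perm (Fin 5) := fun i => if i = 0 then A else B
  have hτ : ∀ w, τ (wv φ w) = wv g w := fun w => by
    rw [map_wv]
    congr 1
    funext i
    by_cases h : i = 0 <;> simp [τ, φ, e, g, h]
  refine ShortPres.hasPres_of_list τ (Pair.rels5.map (wv φ)) (by decide) ?_ _ ?_ ?_
  · intro l hl
    obtain ⟨r, hr, rfl⟩ := List.mem_map.1 hl
    rw [hτ]
    revert r
    decide +kernel
  · refine le_antisymm ?_ ?_
    · rw [FreeGroup.range_lift_eq_closure, Subgroup.closure_le]
      rintro _ ⟨i, rfl⟩
      fin_cases i <;> (show Perm.sign _ = 1; decide +kernel)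
    · intro σ hσ
      have h : ∀ σ : alternatingGroup (Fin 5), ∃ i : Fin 5, ∃ u : Fin 12,
          σ.1 = A ^ (i : ℕ) * (reps (lv g) Pair.tab5.tree).getD (u : ℕ) 1 := by decide +kernel
      obtain ⟨i, u, hu⟩ := h ⟨σ, hσ⟩
      rw [show σ = _ from hu]
      have hA : A ∈ τ.range := ⟨FreeGroup.of 0, by simp [τ]⟩
      refine mul_mem (pow_mem hA _) ?_
      have hall : ∀ (t : List (ℕ × ℕ)) (u : ℕ), (reps (lv g) t).getD u 1 ∈ τ.range := by
        intro t
        induction t using List.reverseRecOn with
        | nil => intro u; rcases u with _ | u <;> simp [reps]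
        | append_singleton t e' ih =>
          intro u
          rw [reps_concat]
          by_cases h : u < (reps (lv g) t).length
          · rw [List.getD_append _ _ _ _ h]; exact ih u
          · by_cases h' : u = (reps (lv g) t).length
            · subst h'
              rw [List.getD_append_right _ _ _ _ le_rfl, Nat.sub_self, List.getD_cons_zero]
              refine mul_mem (ih _) ?_
              have hB : B ∈ τ.range := ⟨FreeGroup.of 1, by simp [τ]⟩
              simp only [lv, g]
              split_ifs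
              exacts [hA, hB, inv_mem hA, inv_mem hB]
            · rw [List.getD_eq_default _ _ (by simp; omega)]; exact one_mem _
      exact hall _ _
  · intro G _ χ ψ hsurj hkill _
    set gG : ℕ → G := fun i => χ (φ i)
    have hr : ∀ r ∈ Pair.rels5, wv gG r = 1 := fun r hr => by
      rw [← map_wv]; exact hkill _ (List.mem_map.2 ⟨r, hr, rfl⟩)
    obtain ⟨f1, c1⟩ := card_upto_one_le gG (k := 5) (by norm_num)
      (by rw [← wv_replicate]; exact hr _ (by decide))
    obtain ⟨f2, c2⟩ := Pair.tab5.card_le (rels := Pair.rels5) (by decide +kernel) gG hr (N := 5) f1 c1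
    have htop : upto gG 2 = ⊤ := by
      rw [upto_two_eq]
      have := MonoidHom.map_closure χ (Set.range (FreeGroup.of : Fin 2 → FreeGroup (Fin 2)))
      rw [FreeGroup.closure_range_of, Subgroup.map_top_of_surjective χ hsurj, ← Set.range_comp] at this
      rw [this]
      congr 1
      ext x
      simp [gG, φ, e, Fin.exists_fin_two, eq_comm]
    change Finite (upto gG 2) at f2
    change Nat.card (upto gG 2) ≤ _ at c2
    rw [htop] at c2
    rw [Subgroup.card_top] at c2
    refine ⟨Finite.of_surjective (Subgroup.subtype (upto gG 2)) fun x => ⟨⟨x, htop ▸ Subgroup.mem_top x⟩, rfl⟩,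
      c2.trans ?_⟩
    rw [show Nat.card (alternatingGroup (Fin 5)) = 60 by rw [Nat.card_eq_fintype_card]; decide +kernel]
    decide

end CfsgLib.SUPres.Base
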