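import Mathlib

/-!
Certificates for one level of a chain of subgroups: the number of cosets of the group generated by all but the last
generator is at most the size of a saturated table, and at least the number of representatives that are pairwise
separated by a subgroup.
-/

set_option autoImplicit false

namespace CfsgLib.SUPres.Base

/-- The reverse of a letter. -/
def flipL (x : ℕ) : ℕ := if x % 2 = 0 then x + 1 else x - 1

/-- A coset table with its derivation. -/
structure Tab where
  /-- number of cosets -/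
  n : ℕ
  /-- number of generators of the group -/
  j : ℕ
  /-- the action -/
  act : List (List ℕ)
  /-- the tree: coset `k + 1` is reached from `.1` by the letter `.2` -/
  tree : List (ℕ × ℕ)
  /-- deductions: base coset, relator, rotation -/
  deds : List (ℕ × ℕ × ℕ)

namespace Tab

variable (T : Tab)

/-- The number of letters. -/
def nl : ℕ := 2 * T.j

/-- The target of an edge. -/
def tgt (u x : ℕ) : ℕ := (T.act.getD u []).getD x 0

/-- The edge is known. -/
def known (m u x : ℕ) : Bool := m.testBit (T.nl * u + x)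

/-- Mark an edge and its reverse. -/
def learn (m u x : ℕ) : Option ℕ :=
  if u < T.n ∧ x < T.nl ∧ T.tgt u x < T.n ∧ T.tgt (T.tgt u x) (flipL x) = u then
    some (m ||| 2 ^ (T.nl * u + x) ||| 2 ^ (T.nl * T.tgt u x + flipL x))
  else none

/-- The letters of the subgroup fix the first coset. -/
def addSub : ℕ → List ℕ → Option ℕ
  | m, [] => some m
  | m, x :: l => if T.tgt 0 x = 0 then (T.learn m 0 x).bind fun m' => addSub m' l else none

/-- The tree edges. -/
def addTree : ℕ → ℕ → List (ℕ × ℕ) → Option ℕ
  | m, _, [] => some m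
  | m, k, e :: l =>
    if e.1 < k ∧ T.tgt e.1 e.2 = k then (T.learn m e.1 e.2).bind fun m' => addTree m' (k + 1) l
    else none

/-- Follow known edges. -/
def walk (m : ℕ) : ℕ → List ℕ → Option ℕ
  | u, [] => some u
  | u, x :: w => if x < T.nl ∧ T.known m u x then walk m (T.tgt u x) w else none

/-- One deduction. -/
def deduce (rels : List (List ℕ)) (m : ℕ) (d : ℕ × ℕ × ℕ) : Option ℕ :=
  match ((rels.getD d.2.1 []).rotate d.2.2).reverse with
  | [] => none
  | x :: w => match T.walk m d.1 w.reverse with
    | none => none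
    | some u => if T.tgt u x = d.1 then T.learn m u x else none

/-- All deductions. -/
def saturate (rels : List (List ℕ)) : ℕ → List (ℕ × ℕ × ℕ) → Option ℕ
  | m, [] => some m
  | m, d :: l => (T.deduce rels m d).bind fun m' => saturate rels m' l

/-- The check. -/
def ok (rels : List (List ℕ)) : Bool :=
  decide (0 < T.j ∧ T.tree.length + 1 = T.n) &&
    match (T.addSub 0 (List.range (2 * (T.j - 1)))).bind fun m => (T.addTree m 1 T.tree).bind fun m' =>
      T.saturate rels m' T.deds with
    | none => false
    | some m => (List.range T.n).all fun u => (List.range T.nl).all fun x => T.known m u x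

end Tab

variable {W : Type*} [Group W]

/-- The value of a letter. -/
def lv (g : ℕ → W) (x : ℕ) : W := if x % 2 = 0 then g (x / 2) else (g (x / 2))⁻¹

/-- The value of a word. -/
def wv (g : ℕ → W) (w : List ℕ) : W := (w.map (lv g)).prod

/-- The group of the first generators. -/
def upto (g : ℕ → W) (j : ℕ) : Subgroup W := Subgroup.closure (g '' {i | i < j})

theorem lv_flip (g : ℕ → W) (x : ℕ) : lv g (flipL x) = (lv g x)⁻¹ := by
  unfold lv flipL
  by_cases h : x % 2 = 0
  · rw [if_pos h, if_neg (by omega : ¬ (x + 1) % 2 = 0), if_pos h, show (x + 1) / 2 = x / 2 by omega]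
  · rw [if_neg h, if_pos (by omega : (x - 1) % 2 = 0), if_neg h, inv_inv, show (x - 1) / 2 = x / 2 by omega]

theorem wv_rotate (g : ℕ → W) (w : List ℕ) (k : ℕ) (h : wv g w = 1) : wv g (w.rotate k) = 1 := by
  rw [wv, List.map_rotate]
  exact List.prod_rotate_eq_one_of_prod_eq_one h k

theorem lv_mem (g : ℕ → W) {j x : ℕ} (h : x < 2 * j) : lv g x ∈ upto g j := by
  have hg : g (x / 2) ∈ upto g j := Subgroup.subset_closure ⟨x / 2, by simp only [Set.mem_ofPred_eq]; omega, rfl⟩
  unfold lv
  split
  exacts [hg, inv_mem hg]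

/-- The coset representatives. -/
def reps {M : Type*} [One M] [Mul M] (l : ℕ → M) (tree : List (ℕ × ℕ)) : List M :=
  tree.foldl (fun acc e => acc ++ [acc.getD e.1 1 * l e.2]) [1]

theorem reps_concat {M : Type*} [One M] [Mul M] (l : ℕ → M) (t : List (ℕ × ℕ)) (e : ℕ × ℕ) :
    reps l (t ++ [e]) = reps l t ++ [(reps l t).getD e.1 1 * l e.2] := by
  simp [reps, List.foldl_append]

theorem length_reps {M : Type*} [One M] [Mul M] (l : ℕ → M) (t : List (ℕ × ℕ)) :
    (reps l t).length = t.length + 1 := by
  induction t using List.reverseRecOn with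
  | nil => simp [reps]
  | append_singleton t e ih => simp [reps_concat, ih]

theorem reps_append_getD (l : ℕ → W) (t t' : List (ℕ × ℕ)) {u : ℕ} (hu : u < t.length + 1) :
    (reps l (t ++ t')).getD u 1 = (reps l t).getD u 1 := by
  induction t' using List.reverseRecOn with
  | nil => simp
  | append_singleton t' e ih =>
    rw [← List.append_assoc, reps_concat, List.getD_append _ _ _ _ (by simp [length_reps]; omega), ih]

namespace Tab

variable (T : Tab)

/-- The representative of a coset. -/
def rep (g : ℕ → W) (u : ℕ) : W := (reps (lv g) T.tree).getD u 1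

theorem rep_zero (g : ℕ → W) : T.rep g 0 = 1 := by
  have := reps_append_getD (lv g) [] T.tree (u := 0) (by simp)
  simpa [rep, reps] using this

theorem rep_child (g : ℕ → W) {p : List (ℕ × ℕ)} {e : ℕ × ℕ} {r : List (ℕ × ℕ)} (h : T.tree = p ++ e :: r)
    (he : e.1 < p.length + 1) : T.rep g (p.length + 1) = T.rep g e.1 * lv g e.2 := by
  rw [rep, rep, h, show p ++ e :: r = (p ++ [e]) ++ r by simp, reps_append_getD _ _ _ (by simp),
    reps_append_getD _ (p ++ [e]) r (by simp; omega), reps_concat,
    List.getD_append_right _ _ _ _ (by simp [length_reps]), List.getD_append _ _ _ _ (by simp [length_reps]; omega)]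
  simp [length_reps]

/-- The known edges are correct. -/
def Sound (g : ℕ → W) (m : ℕ) : Prop :=
  ∀ u x, x < T.nl → T.known m u x = true →
    u < T.n ∧ T.tgt u x < T.n ∧ T.rep g u * lv g x * (T.rep g (T.tgt u x))⁻¹ ∈ upto g (T.j - 1)

variable {T}

theorem flipL_lt {x j : ℕ} (h : x < 2 * j) : flipL x < 2 * j := by
  unfold flipL; split <;> omega

theorem index_inj {N u v x y : ℕ} (hx : x < N) (hy : y < N) (h : N * u + x = N * v + y) : u = v ∧ x = y := by
  have h1 := congrArg (· % N) h
  simp only [Nat.mul_add_mod, Nat.mod_eq_of_lt hx, Nat.mod_eq_of_lt hy] at h1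
  subst h1
  exact ⟨Nat.eq_of_mul_eq_mul_left (by omega) (Nat.add_right_cancel h), rfl⟩

theorem Sound.learn {g : ℕ → W} {m m' u x : ℕ} (hm : T.Sound g m) (h : T.learn m u x = some m')
    (he : T.rep g u * lv g x * (T.rep g (T.tgt u x))⁻¹ ∈ upto g (T.j - 1)) : T.Sound g m' := by
  simp only [Tab.learn] at h
  split_ifs at h with hc
  obtain rfl := Option.some.inj h
  obtain ⟨hu, hx, hv, hback⟩ := hc
  intro u' x' hx' hk
  simp only [known, Nat.testBit_lor, Nat.testBit_two_pow, Bool.or_eq_true, decide_eq_true_eq] at hk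
  rcases hk with (hk | hk) | hk
  · exact hm u' x' hx' hk
  · obtain ⟨rfl, rfl⟩ := index_inj hx hx' hk
    exact ⟨hu, hv, he⟩
  · obtain ⟨rfl, rfl⟩ := index_inj (flipL_lt hx) hx' hk
    refine ⟨hv, by rw [hback]; exact hu, ?_⟩
    rw [hback, lv_flip]
    simpa only [_root_.mul_inv_rev, inv_inv, mul_assoc] using inv_mem he

theorem Sound.addSub {g : ℕ → W} : ∀ {l : List ℕ} {m m' : ℕ}, (∀ x ∈ l, x < 2 * (T.j - 1)) → T.Sound g m →
    T.addSub m l = some m' → T.Sound g m'
  | [], m, m', _, hm, h => by obtain rfl := Option.some.inj h; exact hm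
  | x :: l, m, m', hl, hm, h => by
    simp only [Tab.addSub] at h
    split_ifs at h with hc
    simp only [Option.bind_eq_some_iff] at h
    obtain ⟨m1, h1, h2⟩ := h
    refine Sound.addSub (fun y hy => hl y (List.mem_cons_of_mem _ hy)) (hm.learn h1 ?_) h2
    rw [hc, T.rep_zero, one_mul, inv_one, mul_one]
    exact lv_mem g (hl x List.mem_cons_self)

theorem Sound.addTree {g : ℕ → W} : ∀ {l p : List (ℕ × ℕ)} {m m' : ℕ}, T.tree = p ++ l → T.Sound g m →
    T.addTree m (p.length + 1) l = some m' → T.Sound g m'
  | [], p, m, m', _, hm, h => by obtain rfl := Option.some.inj h; exact hm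
  | e :: l, p, m, m', hp, hm, h => by
    simp only [Tab.addTree] at h
    split_ifs at h with hc
    simp only [Option.bind_eq_some_iff] at h
    obtain ⟨m1, h1, h2⟩ := h
    refine Sound.addTree (l := l) (p := p ++ [e]) (by simp [hp]) (hm.learn h1 ?_) ?_
    · rw [hc.2, T.rep_child g hp hc.1, mul_inv_cancel]
      exact one_mem _
    · simpa using h2

theorem Sound.walk {g : ℕ → W} {m : ℕ} (hm : T.Sound g m) :
    ∀ {w : List ℕ} {u v : ℕ}, T.walk m u w = some v →
      T.rep g u * wv g w * (T.rep g v)⁻¹ ∈ upto g (T.j - 1)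
  | [], u, v, h => by
    obtain rfl := Option.some.inj h
    simp [wv]
  | x :: w, u, v, h => by
    simp only [Tab.walk] at h
    split_ifs at h with hc
    have h1 := (hm u x hc.1 hc.2).2.2
    have h2 := Sound.walk hm h
    have := mul_mem h1 h2
    simpa [wv, mul_assoc] using this

theorem Sound.deduce {g : ℕ → W} {rels : List (List ℕ)} {m m' : ℕ} {d : ℕ × ℕ × ℕ}
    (hrel : ∀ r ∈ rels, wv g r = 1) (hm : T.Sound g m) (h : T.deduce rels m d = some m') : T.Sound g m' := by
  have hr : wv g ((rels.getD d.2.1 []).rotate d.2.2) = 1 := by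
    refine wv_rotate g _ _ ?_
    by_cases hlt : d.2.1 < rels.length
    · rw [List.getD_eq_getElem _ _ hlt]
      exact hrel _ (List.getElem_mem hlt)
    · rw [List.getD_eq_default _ _ (by omega)]; rfl
  unfold Tab.deduce at h
  split at h
  · cases h
  next x w e =>
    split at h
    · cases h
    next u hu =>
      split_ifs at h with hv
      refine hm.learn h ?_
      rw [List.reverse_eq_cons_iff] at e
      rw [e, wv, List.map_append, List.prod_append, List.map_singleton, List.prod_singleton] at hr
      have h1 := inv_mem (hm.walk hu)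
      rw [wv, eq_inv_of_mul_eq_one_left hr] at h1
      rw [hv]
      simpa only [_root_.mul_inv_rev, inv_inv, mul_assoc] using h1

theorem Sound.saturate {g : ℕ → W} {rels : List (List ℕ)} (hrel : ∀ r ∈ rels, wv g r = 1) :
    ∀ {l : List (ℕ × ℕ × ℕ)} {m m' : ℕ}, T.Sound g m → T.saturate rels m l = some m' → T.Sound g m'
  | [], m, m', hm, h => by obtain rfl := Option.some.inj h; exact hm
  | d :: l, m, m', hm, h => by
    simp only [Tab.saturate, Option.bind_eq_some_iff] at h
    obtain ⟨m1, h1, h2⟩ := h
    exact Sound.saturate hrel (hm.deduce hrel h1) h2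

/-- A certified table bounds the index. -/
theorem card_le {rels : List (List ℕ)} (hT : T.ok rels = true) (g : ℕ → W) (hrel : ∀ r ∈ rels, wv g r = 1)
    {N : ℕ} (hfin : Finite (upto g (T.j - 1))) (hN : Nat.card (upto g (T.j - 1)) ≤ N) :
    Finite (upto g T.j) ∧ Nat.card (upto g T.j) ≤ N * T.n := by
  simp only [Tab.ok, Bool.and_eq_true, decide_eq_true_eq] at hT
  obtain ⟨⟨hj, hlen⟩, hT⟩ := hT
  split at hT
  · exact absurd hT Bool.false_ne_true
  next m hm =>
    simp only [Option.bind_eq_some_iff] at hm
    obtain ⟨m1, h1, m2, h2, h3⟩ := hm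
    have hzero : T.Sound g 0 := fun u x _ h => by simp [known] at h
    have hS : T.Sound g m := Sound.saturate hrel
      (Sound.addTree (p := []) rfl (Sound.addSub (fun x hx => List.mem_range.1 hx) hzero h1) h2) h3
    simp only [List.all_eq_true, List.mem_range] at hT
    set H := upto g (T.j - 1)
    have hstep : ∀ w : W, (∃ u < T.n, w * (T.rep g u)⁻¹ ∈ H) → ∀ x < T.nl,
        ∃ u < T.n, w * lv g x * (T.rep g u)⁻¹ ∈ H := by
      rintro w ⟨u, hu, hw⟩ x hx
      obtain ⟨-, hv, he⟩ := hS u x hx (hT u hu x hx)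
      refine ⟨_, hv, ?_⟩
      simpa [mul_assoc] using mul_mem hw he
    have hlv : ∀ i, i < T.j → lv g (2 * i) = g i ∧ lv g (2 * i + 1) = (g i)⁻¹ := fun i _ => by
      simp only [lv, show (2 * i) % 2 = 0 by omega, show (2 * i + 1) % 2 = 1 by omega,
        show (2 * i) / 2 = i by omega, show (2 * i + 1) / 2 = i by omega, if_true, one_ne_zero, if_false, and_self]
    have hall : ∀ w ∈ upto g T.j, ∃ u < T.n, w * (T.rep g u)⁻¹ ∈ H := by
      intro w hw
      induction hw using Subgroup.closure_induction_right with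
      | one => exact ⟨0, by omega, by simp [rep_zero]⟩
      | mul_right x _ y hy ih =>
        obtain ⟨i, hi, rfl⟩ := hy
        simp only [Set.mem_ofPred_eq] at hi
        have := hstep x ih (2 * i) (show 2 * i < 2 * T.j by omega)
        rwa [(hlv i hi).1] at this
      | mul_inv_cancel x _ y hy ih =>
        obtain ⟨i, hi, rfl⟩ := hy
        simp only [Set.mem_ofPred_eq] at hi
        have := hstep x ih (2 * i + 1) (show 2 * i + 1 < 2 * T.j by omega)
        rwa [(hlv i hi).2] at this
    have := hfin
    let f : H × Fin T.n → W := fun p => (p.1 : W) * T.rep g p.2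
    have hsub : (upto g T.j : Set W) ⊆ Set.range f := by
      intro w hw
      obtain ⟨u, hu, hz⟩ := hall w hw
      exact ⟨(⟨_, hz⟩, ⟨u, hu⟩), by simp [f]⟩
    have hfin' := (Set.finite_range f).subset hsub
    refine ⟨hfin'.to_subtype, ?_⟩
    calc Nat.card (upto g T.j) ≤ (Set.range f).ncard := Set.ncard_le_ncard hsub (Set.finite_range f)
      _ = Nat.card (Set.range f) := (Nat.card_coe_set_eq _).symm
      _ ≤ Nat.card (H × Fin T.n) := Finite.card_range_le f
      _ ≤ N * T.n := by
        rw [Nat.card_prod, Nat.card_fin]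
        exact Nat.mul_le_mul_right _ hN

end Tab

/-- The group of one generator. -/
theorem card_upto_one_le (g : ℕ → W) {k : ℕ} (hk : 0 < k) (h : g 0 ^ k = 1) :
    Finite (upto g 1) ∧ Nat.card (upto g 1) ≤ k := by
  have e : upto g 1 = Subgroup.zpowers (g 0) := by
    rw [Subgroup.zpowers_eq_closure, upto]
    congr 1
    ext w
    simp
  have hof : IsOfFinOrder (g 0) := isOfFinOrder_iff_pow_eq_one.2 ⟨k, hk, h⟩
  rw [e]
  exact ⟨hof.finite_zpowers.to_subtype, by
    rw [Nat.card_zpowers]; exact orderOf_le_of_pow_eq_one hk h⟩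

/-- Separated elements multiply the order. -/
theorem card_ge_mul [Finite W] {H L K : Subgroup W} (hH : H ≤ L) (hK : H ≤ K) {n : ℕ} (r : ℕ → W)
    (hr : ∀ u < n, r u ∈ K) (hsep : ∀ u < n, ∀ v < n, u < v → r u * (r v)⁻¹ ∉ L) :
    Nat.card H * n ≤ Nat.card K := by
  let f : H × Fin n → K := fun p => ⟨(p.1 : W) * r p.2, mul_mem (hK p.1.2) (hr _ p.2.isLt)⟩
  have hinj : Function.Injective f := by
    rintro ⟨a, u⟩ ⟨b, v⟩ e
    have e' : (a : W) * r u = (b : W) * r v := congrArg Subtype.val e
    have hmem : r u * (r v)⁻¹ ∈ L := by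
      have : r u * (r v)⁻¹ = (a : W)⁻¹ * (b : W) := by
        rw [eq_comm, ← mul_inv_eq_iff_eq_mul.2 e'.symm.symm]
        group
      rw [this]; exact mul_mem (inv_mem (hH a.2)) (hH b.2)
    have huv : u = v := by
      rcases lt_trichotomy (u : ℕ) v with h | h | h
      · exact absurd hmem (hsep _ u.isLt _ v.isLt h)
      · exact Fin.ext h
      · refine absurd ?_ (hsep _ v.isLt _ u.isLt h)
        simpa using inv_mem hmem
    subst huv
    exact Prod.ext (Subtype.ext (mul_right_cancel e')) rfl
  have := Nat.card_le_card_of_injective f hinj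
  rwa [Nat.card_prod, Nat.card_fin] at this

end CfsgLib.SUPres.Base
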