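import Cfsg.Agent.Lib.SUPres.Base.Model
import Cfsg.Agent.Lib.ClassicalForms.Unitary.Center

/-!
Setups over the fields with 4, 9 and 25 elements and chains of tables.
-/

set_option autoImplicit false
set_option maxRecDepth 100000
set_option maxHeartbeats 2000000
set_option linter.unusedSectionVars false

namespace CfsgLib.SUPres.Base

open CfsgLib.SUAmalgam CfsgLib.ClassicalForms
open CfsgLib.ShortPres (HasPres)

universe u

/-- The parameters for four elements. -/
def P2 : Prm := ⟨2, 1, 1⟩

/-- The parameters for nine elements. -/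
def P3 : Prm := ⟨3, 2, 0⟩

/-- The parameters for twenty-five elements. -/
def P5 : Prm := ⟨5, 2, 0⟩

theorem sep_two : P2.sep := by unfold Prm.sep; decide +kernel
theorem sep_three : P3.sep := by unfold Prm.sep; decide +kernel
theorem sep_five : P5.sep := by unfold Prm.sep; decide +kernel

variable {F : Type u} [Field F] [Finite F]

theorem cast_eq_zero {q : ℕ} (hq : q.Prime) (hF : Nat.card F = q ^ 2) : (q : F) = 0 := by
  have := Fintype.ofFinite F
  have h : ((q : F)) ^ 2 = 0 := by
    rw [← Nat.cast_pow, ← hF, Nat.card_eq_fintype_card]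
    exact Nat.cast_card_eq_zero F
  exact pow_eq_zero_iff two_ne_zero |>.1 h

theorem nonempty_setup_two (hF : Nat.card F = 2 ^ 2) : Nonempty (Setup F P2) := by
  have := Fintype.ofFinite F
  have h2 : (2 : F) = 0 := by exact_mod_cast cast_eq_zero Nat.prime_two hF
  have hcard : Fintype.card F = 4 := by rw [← Nat.card_eq_fintype_card, hF]; norm_num
  classical
  obtain ⟨i, hi⟩ : ∃ i : F, i ∉ ({0, 1} : Finset F) := by
    by_contra h
    simp only [not_exists, not_not] at h
    have := Finset.card_le_card (fun x _ => h x : (Finset.univ : Finset F) ⊆ {0, 1})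
    rw [Finset.card_univ, hcard] at this
    exact absurd this (by have := Finset.card_le_two (a := (0 : F)) (b := 1); omega)
  simp only [Finset.mem_insert, Finset.mem_singleton, not_or] at hi
  have h4 : i ^ 4 = i := hcard ▸ FiniteField.pow_card i
  have h : i * i = 1 + i := by
    have : i * ((i - 1) * (i * i + i + 1)) = 0 := by linear_combination h4
    rcases mul_eq_zero.1 this with h | h
    · exact absurd h hi.1
    rcases mul_eq_zero.1 h with h | h
    · exact absurd (sub_eq_zero.1 h) hi.2
    linear_combination h - (1 + i) * h2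
  exact ⟨{ i := i, one_lt := by decide, cast := cast_eq_zero Nat.prime_two hF, prime := Nat.prime_two
           sq := by simp [P2, h]
           conj := by simp only [P2, Nat.cast_one]; linear_combination h + i * h2
           sep := sep_two }⟩

theorem nonempty_setup_three (hF : Nat.card F = 3 ^ 2) : Nonempty (Setup F P3) := by
  have := Fintype.ofFinite F
  have h3 : (3 : F) = 0 := by exact_mod_cast cast_eq_zero Nat.prime_three hF
  have hcard : Fintype.card F = 9 := by rw [← Nat.card_eq_fintype_card, hF]; norm_num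
  obtain ⟨i, hi⟩ := (FiniteField.isSquare_neg_one_iff (F := F)).2 (by rw [hcard]; decide)
  exact ⟨{ i := i, one_lt := by decide, cast := cast_eq_zero Nat.prime_three hF, prime := Nat.prime_three
           sq := by simp only [P3, Nat.cast_ofNat, Nat.cast_zero]; linear_combination -hi - h3
           conj := by simp only [P3, Nat.cast_zero]; linear_combination -i * hi
           sep := sep_three }⟩

theorem nonempty_setup_five (hF : Nat.card F = 5 ^ 2) : Nonempty (Setup F P5) := by
  have := Fintype.ofFinite F
  have h5 : (5 : F) = 0 := by exact_mod_cast cast_eq_zero Nat.prime_five hF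
  have hcard : Fintype.card F = 25 := by rw [← Nat.card_eq_fintype_card, hF]; norm_num
  obtain ⟨i, hi⟩ := (FiniteField.isSquare_two_iff (F := F)).2 (by rw [hcard]; decide)
  exact ⟨{ i := i, one_lt := by decide, cast := cast_eq_zero Nat.prime_five hF, prime := Nat.prime_five
           sq := by simp only [P5, Nat.cast_ofNat, Nat.cast_zero]; linear_combination -hi
           conj := by simp only [P5, Nat.cast_zero]; linear_combination -(i ^ 3 + 2 * i) * hi + i * h5
           sep := sep_five }⟩

theorem wv_replicate {W : Type*} [Group W] (g : ℕ → W) (o : ℕ) : wv g (List.replicate o 0) = g 0 ^ o := by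
  simp [wv, lv]

/-- The upper bound along a chain of two tables. -/
theorem upper_three {rels : List (List ℕ)} {o N : ℕ} (ho : 0 < o) (hmem : List.replicate o 0 ∈ rels) {T2 T3 : Tab}
    (j2 : T2.j = 2) (j3 : T3.j = 3) (h2 : T2.ok rels = true) (h3 : T3.ok rels = true) (hN : o * T2.n * T3.n = N)
    {W : Type} [Group W] (g : ℕ → W) (hr : ∀ r ∈ rels, wv g r = 1) :
    Finite (upto g 3) ∧ Nat.card (upto g 3) ≤ N := by
  obtain ⟨f1, c1⟩ := card_upto_one_le g ho (by rw [← wv_replicate]; exact hr _ hmem)
  obtain ⟨f2, c2⟩ := T2.card_le h2 g hr (N := o) (by rw [j2]; exact f1) (by rw [j2]; exact c1)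
  rw [j2] at f2 c2
  obtain ⟨f3, c3⟩ := T3.card_le h3 g hr (N := o * T2.n) (by rw [j3]; exact f2) (by rw [j3]; exact c2)
  rw [j3] at f3 c3
  exact ⟨f3, hN ▸ c3⟩

/-- The upper bound along a chain of three tables. -/
theorem upper_four {rels : List (List ℕ)} {o N : ℕ} (ho : 0 < o) (hmem : List.replicate o 0 ∈ rels)
    {T2 T3 T4 : Tab} (j2 : T2.j = 2) (j3 : T3.j = 3) (j4 : T4.j = 4) (h2 : T2.ok rels = true)
    (h3 : T3.ok rels = true) (h4 : T4.ok rels = true) (hN : o * T2.n * T3.n * T4.n = N)
    {W : Type} [Group W] (g : ℕ → W) (hr : ∀ r ∈ rels, wv g r = 1) :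
    Finite (upto g 4) ∧ Nat.card (upto g 4) ≤ N := by
  obtain ⟨f3, c3⟩ := upper_three ho hmem j2 j3 h2 h3 rfl g hr
  obtain ⟨f4, c4⟩ := T4.card_le h4 g hr (N := o * T2.n * T3.n) (by rw [j4]; exact f3) (by rw [j4]; exact c3)
  rw [j4] at f4 c4
  exact ⟨f4, hN ▸ c4⟩

theorem card_su_small {q n N : ℕ} (hF : Nat.card F = q ^ 2) (hn : 1 ≤ n)
    (h : ∀ g, Nat.card (Cfsg.GU n F q) = g → g = (q + 1) * N) : Nat.card (SUg n F q) = N := by
  have h1 := card_gu_eq_mul_su hF (n := n) hn
  rw [h _ rfl] at h1
  exact (Nat.eq_of_mul_eq_mul_left (Nat.succ_pos q) h1).symm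

end CfsgLib.SUPres.Base
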