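import Cfsg.Agent.Lib.SUPres.Base.UMat
import Cfsg.Agent.Lib.SUPres.Base.Cert
import Cfsg.Agent.Lib.ShortPres.Pres

/-!
Generators of `SU_n(q)` given by coded matrices: their relations, lower bounds for the subgroups they generate, and
the presentation that follows from matching bounds.
-/

set_option autoImplicit false
set_option linter.unusedSectionVars false

namespace CfsgLib.SUPres.Base

open CfsgLib.SUAmalgam Matrix
open CfsgLib.ShortPres (HasPres)

universe u

variable {F : Type u} [Field F] {P : Prm} {n : ℕ} {gens : List (List ℕ)}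

namespace Prm

variable (P)

/-- The matrix of a letter. -/
def letM (n : ℕ) (gens : List (List ℕ)) (x : ℕ) : List ℕ :=
  if x % 2 = 0 then gens.getD (x / 2) (oneM n) else P.starM n (gens.getD (x / 2) (oneM n))

/-- The matrix of a word. -/
def evalW (n : ℕ) (gens : List (List ℕ)) (w : List ℕ) : List ℕ :=
  w.foldr (fun x M => P.mulM n (P.letM n gens x) M) (oneM n)

/-- The powers of the first generator. -/
def powM (n : ℕ) (gens : List (List ℕ)) : ℕ → List (List ℕ)
  | 0 => [oneM n]
  | o + 1 => let l := powM n gens o; l ++ [P.mulM n (P.letM n gens 0) (l.getD o (oneM n))]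

/-- The matrices of the representatives. -/
def repsM (n : ℕ) (gens : List (List ℕ)) (tree : List (ℕ × ℕ)) : List (List ℕ) :=
  tree.foldl (fun acc e => acc ++ [P.mulM n (acc.getD e.1 (oneM n)) (P.letM n gens e.2)]) [oneM n]

/-- All generators are special unitary. -/
def gensOK (n : ℕ) (gens : List (List ℕ)) : Bool := gens.all (P.isSU n) && P.isSU n (oneM n)

/-- All relators hold. -/
def relsOK (n : ℕ) (gens : List (List ℕ)) (rels : List (List ℕ)) : Bool :=
  rels.all fun r => decide (P.evalW n gens r = oneM n)

/-- A short code of a matrix. -/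
def enc (M : List ℕ) : ℕ := M.foldl (fun a x => a * 64 + x) 0

/-- A short code of a pattern. -/
def encB (m : List Bool) : ℕ := m.foldl (fun a b => cond b (2 * a + 1) (2 * a)) 0

/-- The representatives are separated by the powers of the first generator. -/
def sepPow (n : ℕ) (gens : List (List ℕ)) (o : ℕ) (tree : List (ℕ × ℕ)) : Bool :=
  let pw := P.powM n gens o
  let R := P.repsM n gens tree
  decide (0 < o ∧ pw.getD o [] = oneM n) && decide ((pw.take o).Nodup) &&
    (List.range (tree.length + 1)).all fun v =>
      let L := pw.map fun M => enc (P.mulM n M (R.getD v (oneM n)))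
      (List.range v).all fun u => !L.contains (enc (R.getD u (oneM n)))

/-- A block of zeros in another basis. -/
def blockTest (n : ℕ) (B Bi : List ℕ) (C : List Bool) (M : List ℕ) : Bool :=
  let N := P.mulM n (P.mulM n Bi M) B
  (List.range n).all fun i => (List.range n).all fun j =>
    C.getD i false || !C.getD j false || decide (ent n N i j = 0)

/-- The coordinates outside the block of the image of a test vector vanish. -/
def hits (n : ℕ) (C : List Bool) (X v : List ℕ) : Bool :=
  (List.range n).all fun i => C.getD i false || decide (P.dotc n (fun k => ent n X i k) (fun k => v.getD k 0) = 0)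

/-- The pattern of a coset on the test vectors. -/
def mask (n : ℕ) (C : List Bool) (V : List (List ℕ)) (X : List ℕ) : List Bool := V.map (P.hits n C X)

/-- The representatives are separated by a block stabiliser containing the first generators. -/
def sepBlock (n : ℕ) (gens : List (List ℕ)) (j : ℕ) (B Bi : List ℕ) (C : List Bool) (V : List (List ℕ))
    (tree : List (ℕ × ℕ)) : Bool :=
  let R := P.repsM n gens tree
  decide (P.mulM n Bi B = oneM n ∧ P.mulM n B Bi = oneM n) &&
    ((List.range (j - 1)).all fun i => P.blockTest n B Bi C (gens.getD i (oneM n))) &&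
    decide ((R.map fun M => encB (P.mask n C V (P.mulM n Bi M))).Nodup)

theorem good_map (hp : 0 < P.p) {n : ℕ} (f : ℕ → ℕ) (h : ∀ e, f e < P.p * P.p) :
    P.good n ((List.range (n * n)).map f) = true := by
  simp [good, h]

theorem code_lt (hp : 0 < P.p) (a b : ℕ) : P.code a b < P.p * P.p := by
  unfold code
  have h1 := Nat.mod_lt a hp
  have h2 := Nat.mod_lt b hp
  calc a % P.p + P.p * (b % P.p) < P.p + P.p * (b % P.p) := by omega
    _ = P.p * (b % P.p + 1) := by ring
    _ ≤ P.p * P.p := Nat.mul_le_mul_left _ h2

theorem good_mulM (hp : 0 < P.p) (n : ℕ) (M N : List ℕ) : P.good n (P.mulM n M N) = true := by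
  refine P.good_map hp _ fun e => ?_
  rw [dotc]
  cases n with
  | zero => simp [hp]
  | succ n =>
    rw [List.range_succ, List.foldl_append, List.foldl_cons, List.foldl_nil, addc]
    exact P.code_lt hp _ _

theorem dotc_lt (hp : 0 < P.p) (n : ℕ) (f g : ℕ → ℕ) : P.dotc n f g < P.p * P.p := by
  rw [dotc]
  cases n with
  | zero => simp [hp]
  | succ n =>
    rw [List.range_succ, List.foldl_append, List.foldl_cons, List.foldl_nil, addc]
    exact P.code_lt hp _ _

theorem good_oneM (hp : 1 < P.p) (n : ℕ) : P.good n (oneM n) = true := by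
  refine P.good_map (by omega) _ fun e => ?_
  have : 1 < P.p * P.p := lt_of_lt_of_le hp (Nat.le_mul_self _)
  split <;> omega

theorem length_powM (n : ℕ) (gens : List (List ℕ)) (o : ℕ) : (P.powM n gens o).length = o + 1 := by
  induction o with
  | zero => rfl
  | succ o ih => simp [powM, ih]

theorem powM_getD_zero (n : ℕ) (gens : List (List ℕ)) (o : ℕ) (d : List ℕ) :
    (P.powM n gens o).getD 0 d = oneM n := by
  induction o with
  | zero => simp [powM]
  | succ o ih => rw [powM, List.getD_append _ _ _ _ (by rw [length_powM]; omega), ih]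

theorem good_powM (hp : 1 < P.p) (n : ℕ) (gens : List (List ℕ)) (o e : ℕ) :
    P.good n ((P.powM n gens o).getD e (oneM n)) = true := by
  induction o with
  | zero => rcases e with _ | e <;> simp [powM, P.good_oneM hp n]
  | succ o ih =>
    rw [powM]
    by_cases h : e < (P.powM n gens o).length
    · rw [List.getD_append _ _ _ _ h]; exact ih
    · by_cases h' : e = (P.powM n gens o).length
      · rw [List.getD_append_right _ _ _ _ (by omega), show e - (P.powM n gens o).length = 0 by omega,
          List.getD_cons_zero]
        exact P.good_mulM (by omega) _ _ _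
      · rw [List.getD_eq_default _ _ (by simp; omega)]; exact P.good_oneM hp n

theorem good_repsM (hp : 1 < P.p) (n : ℕ) (gens : List (List ℕ)) (t : List (ℕ × ℕ)) (u : ℕ) :
    P.good n ((P.repsM n gens t).getD u (oneM n)) = true := by
  induction t using List.reverseRecOn generalizing u with
  | nil => rcases u with _ | u <;> simp [repsM, P.good_oneM hp n]
  | append_singleton t e ih =>
    simp only [repsM, List.foldl_append, List.foldl_cons, List.foldl_nil] at ih ⊢
    set R := List.foldl (fun acc e => acc ++ [P.mulM n (acc.getD e.1 (oneM n)) (P.letM n gens e.2)]) [oneM n] t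
    by_cases h : u < R.length
    · rw [List.getD_append _ _ _ _ h]; exact ih u
    · by_cases h' : u = R.length
      · rw [h', List.getD_append_right _ _ _ _ le_rfl, Nat.sub_self, List.getD_cons_zero]
        exact P.good_mulM (by omega) _ _ _
      · rw [List.getD_eq_default _ _ (by simp; omega)]; exact P.good_oneM hp n

theorem length_repsM (n : ℕ) (gens : List (List ℕ)) (t : List (ℕ × ℕ)) :
    (P.repsM n gens t).length = t.length + 1 := by
  induction t using List.reverseRecOn with
  | nil => simp [repsM]
  | append_singleton t e ih => simp [repsM] at ih ⊢; exact ih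

end Prm

theorem map_wv {A B : Type*} [Group A] [Group B] (f : A →* B) (h : ℕ → A) (w : List ℕ) :
    f (wv h w) = wv (fun i => f (h i)) w := by
  rw [wv, wv, map_list_prod, List.map_map]
  congr 1
  refine List.map_congr_left fun x _ => ?_
  simp only [Function.comp_apply, lv]
  split <;> simp

variable (S : Setup F P)

namespace Setup

/-- The generators in `SU n F p`. -/
noncomputable def gM (n : ℕ) (gens : List (List ℕ)) (i : ℕ) : SUg n F P.p :=
  if h : P.isSU n (gens.getD i (Prm.oneM n)) = true then S.toSU h else 1

theorem mat_gM (hg : P.gensOK n gens = true) (i : ℕ) :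
    mat (S.gM n gens i) = S.toMat n (gens.getD i (Prm.oneM n)) := by
  simp only [Prm.gensOK, Bool.and_eq_true, List.all_eq_true] at hg
  have h : P.isSU n (gens.getD i (Prm.oneM n)) = true := by
    by_cases hi : i < gens.length
    · rw [List.getD_eq_getElem _ _ hi]; exact hg.1 _ (List.getElem_mem hi)
    · rw [List.getD_eq_default _ _ (by omega)]; exact hg.2
  rw [gM, dif_pos h]
  rfl

theorem toMat_star_eq {M : List ℕ} {g : SUg n F P.p} (h : mat g = S.toMat n M) :
    mat g⁻¹ = S.toMat n (P.starM n M) := by
  have := S.charP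
  have := Fact.mk S.prime
  have h1 : S.toMat n (P.starM n M) * mat g = 1 := by
    rw [toMat_star, ← h]
    ext a b
    rw [Matrix.mul_apply]
    simp only [Matrix.transpose_apply, Matrix.map_apply]
    have hh := herm_act g (Pi.single b 1) (Pi.single a 1)
    simp only [Cfsg.hermForm, act_single, Pi.single_apply] at hh
    rw [Matrix.one_apply]
    calc ∑ l, mat g l a ^ P.p * mat g l b = ∑ l, mat g l b * mat g l a ^ P.p :=
          Finset.sum_congr rfl fun l _ => mul_comm _ _
      _ = _ := hh
      _ = _ := by
        have hp : P.p ≠ 0 := by have := S.one_lt; omega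
        by_cases e : a = b
        · subst e; simp [hp]
        · simp [e, hp]
  exact (left_inv_eq_right_inv h1 (by rw [← mat_mul, mul_inv_cancel, mat_one])).symm

theorem mat_lv (hg : P.gensOK n gens = true) (x : ℕ) :
    mat (lv (S.gM n gens) x) = S.toMat n (P.letM n gens x) := by
  unfold lv Prm.letM
  split
  · exact S.mat_gM hg _
  · exact S.toMat_star_eq (S.mat_gM hg _)

theorem mat_wv (hg : P.gensOK n gens = true) (w : List ℕ) :
    mat (wv (S.gM n gens) w) = S.toMat n (P.evalW n gens w) := by
  induction w with
  | nil => simp [wv, Prm.evalW, toMat_one]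
  | cons x w ih =>
    rw [Prm.evalW, List.foldr_cons, toMat_mul, ← Prm.evalW, ← ih, ← S.mat_lv hg, ← mat_mul, wv, wv, List.map_cons,
      List.prod_cons]

theorem wv_eq_one (hg : P.gensOK n gens = true) {rels : List (List ℕ)} (hr : P.relsOK n gens rels = true) :
    ∀ r ∈ rels, wv (S.gM n gens) r = 1 := by
  intro r hr'
  simp only [Prm.relsOK, List.all_eq_true, decide_eq_true_eq] at hr
  refine Subtype.ext (Subtype.ext ?_)
  show mat (wv (S.gM n gens) r) = 1
  rw [S.mat_wv hg, hr r hr', toMat_one]

theorem mat_rep (hg : P.gensOK n gens = true) (tree : List (ℕ × ℕ)) (u : ℕ) :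
    mat ((reps (lv (S.gM n gens)) tree).getD u 1) =
      S.toMat n ((P.repsM n gens tree).getD u (Prm.oneM n)) := by
  induction tree using List.reverseRecOn generalizing u with
  | nil =>
    rcases u with _ | u <;> simp [reps, Prm.repsM, toMat_one]
  | append_singleton t e ih =>
    have hl := P.length_repsM n gens t
    have e1 : P.repsM n gens (t ++ [e]) = P.repsM n gens t ++
        [P.mulM n ((P.repsM n gens t).getD e.1 (Prm.oneM n)) (P.letM n gens e.2)] := by
      simp [Prm.repsM, List.foldl_append]
    rw [reps_concat, e1]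
    rcases lt_trichotomy u (t.length + 1) with h | h | h
    · rw [List.getD_append _ _ _ _ (by rw [length_reps]; exact h), List.getD_append _ _ _ _ (by rw [hl]; exact h)]
      exact ih u
    · subst h
      rw [List.getD_append_right _ _ _ _ (by rw [length_reps]), List.getD_append_right _ _ _ _ (by rw [hl]),
        length_reps, hl, Nat.sub_self, List.getD_cons_zero, List.getD_cons_zero, mat_mul, toMat_mul, ih,
        S.mat_lv hg]
    · rw [List.getD_eq_default _ _ (by simp [length_reps]; omega), List.getD_eq_default _ _ (by simp [hl]; omega),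
        mat_one, toMat_one]

theorem mat_pow (hg : P.gensOK n gens = true) (o : ℕ) :
    (P.powM n gens o).length = o + 1 ∧ ∀ e ≤ o,
      mat (S.gM n gens 0 ^ e) = S.toMat n ((P.powM n gens o).getD e (Prm.oneM n)) := by
  induction o with
  | zero =>
    refine ⟨rfl, fun e he => ?_⟩
    obtain rfl : e = 0 := by omega
    simp [Prm.powM, toMat_one]
  | succ o ih =>
    refine ⟨by simp [Prm.powM, ih.1], fun e he => ?_⟩
    rcases Nat.lt_or_ge e (o + 1) with h | h
    · rw [Prm.powM, List.getD_append _ _ _ _ (by rw [ih.1]; omega)]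
      exact ih.2 e (by omega)
    · obtain rfl : e = o + 1 := by omega
      rw [Prm.powM, List.getD_append_right _ _ _ _ (by rw [ih.1]), ih.1, Nat.sub_self, List.getD_cons_zero, toMat_mul,
        ← ih.2 o le_rfl, pow_succ', mat_mul]
      congr 1
      exact S.mat_gM hg 0

/-- A lower bound for the group of the first two generators from the powers of the first. -/
theorem card_two_ge [Finite F] (hg : P.gensOK n gens = true) {o : ℕ} {T : Tab} (hj : T.j = 2)
    (hlet : ∀ e ∈ T.tree, e.2 < 4) (h : P.sepPow n gens o T.tree = true) :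
    o * (T.tree.length + 1) ≤ Nat.card (upto (S.gM n gens) 2) := by
  have hp : 0 < P.p := by have := S.one_lt; omega
  simp only [Prm.sepPow, Bool.and_eq_true, decide_eq_true_eq, List.all_eq_true, List.mem_range,
    Bool.not_eq_true', List.contains_eq_mem, decide_eq_false_iff_not] at h
  obtain ⟨⟨⟨ho, hcyc⟩, hnd⟩, hsep⟩ := h
  obtain ⟨hlen, hpow⟩ := S.mat_pow hg o
  set g := S.gM n gens
  have hone : g 0 ^ o = 1 := by
    refine Subtype.ext (Subtype.ext ?_)
    show mat (g 0 ^ o) = 1
    rw [hpow o le_rfl, List.getD_eq_getElem _ _ (by omega)]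
    rw [List.getD_eq_getElem _ _ (by omega)] at hcyc
    rw [hcyc, toMat_one]
  have hord : o ≤ orderOf (g 0) := by
    by_contra hlt
    have hpos : 0 < orderOf (g 0) := (isOfFinOrder_iff_pow_eq_one.2 ⟨o, ho, hone⟩).orderOf_pos
    have e := hpow (orderOf (g 0)) (by omega)
    rw [pow_orderOf_eq_one, mat_one, ← toMat_one S n] at e
    have e0 := S.toMat_inj (P.good_oneM S.one_lt n) (P.good_powM S.one_lt n gens o _) e
    have h0 := P.powM_getD_zero n gens o (Prm.oneM n)
    rw [List.getD_eq_getElem _ _ (by omega)] at h0 e0
    have i0 : ((P.powM n gens o).take o)[0]'(by simp; omega) =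
        ((P.powM n gens o).take o)[orderOf (g 0)]'(by simp; omega) := by
      simp only [List.getElem_take]
      rw [h0, ← e0]
    have := (List.Nodup.getElem_inj_iff hnd).1 i0
    omega
  have hz : Nat.card (Subgroup.zpowers (g 0)) * (T.tree.length + 1) ≤ Nat.card (upto g 2) := by
    refine card_ge_mul (L := Subgroup.zpowers (g 0)) le_rfl ?_ (fun u => (reps (lv g) T.tree).getD u 1)
      (fun u _ => ?_) (fun u hu v hv huv hmem => ?_)
    · rw [Subgroup.zpowers_le]
      exact Subgroup.subset_closure ⟨0, by simp, rfl⟩
    · have hall : ∀ (t : List (ℕ × ℕ)), (∀ e ∈ t, e.2 < 4) → ∀ u, (reps (lv g) t).getD u 1 ∈ upto g 2 := by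
        intro t
        induction t using List.reverseRecOn with
        | nil => intro _ u; rcases u with _ | u <;> simp [reps]
        | append_singleton t e ih =>
          intro ht u
          have iht := ih fun e' he' => ht e' (List.mem_append_left _ he')
          rw [reps_concat]
          by_cases h : u < (reps (lv g) t).length
          · rw [List.getD_append _ _ _ _ h]; exact iht u
          · by_cases h' : u = (reps (lv g) t).length
            · subst h'
              rw [List.getD_append_right _ _ _ _ le_rfl, Nat.sub_self, List.getD_cons_zero]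
              exact mul_mem (iht _) (lv_mem g (ht e (by simp)))
            · rw [List.getD_eq_default _ _ (by simp; omega)]; exact one_mem _
      exact hall _ hlet u
    · obtain ⟨z, hz'⟩ := hmem
      obtain ⟨e, he, hze⟩ : ∃ e, e < o ∧ g 0 ^ e = g 0 ^ z := by
        refine ⟨(z % o).toNat, ?_, ?_⟩
        · have := Int.emod_lt_of_pos z (b := (o : ℤ)) (by omega)
          omega
        · rw [← zpow_natCast, Int.toNat_of_nonneg (Int.emod_nonneg z (by omega)), ← zpow_eq_zpow_emod' z hone]
      have e1 : mat ((reps (lv g) T.tree).getD u 1) = S.toMat n (P.mulM n ((P.powM n gens o).getD e (Prm.oneM n))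
          ((P.repsM n gens T.tree).getD v (Prm.oneM n))) := by
        rw [toMat_mul, ← hpow e (by omega), hze, ← S.mat_rep hg T.tree v, ← mat_mul]
        congr 1
        rw [show g 0 ^ z = _ from hz', inv_mul_cancel_right]
      rw [S.mat_rep hg] at e1
      have e2 := S.toMat_inj (P.good_repsM S.one_lt n gens T.tree u) (P.good_mulM hp _ _ _) e1
      refine hsep v hv u huv ?_
      rw [e2]
      refine List.mem_map.2 ⟨_, ?_, rfl⟩
      rw [List.getD_eq_getElem _ _ (by omega)]
      exact List.getElem_mem _
  rw [Nat.card_zpowers] at hz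
  exact le_trans (Nat.mul_le_mul_right _ hord) hz

/-- The elements with a block of zeros in another basis. -/
noncomputable def blockSub [Finite F] (n : ℕ) (B Bi : List ℕ) (C : List Bool) (hB : P.mulM n Bi B = Prm.oneM n)
    (hB' : P.mulM n B Bi = Prm.oneM n) : Subgroup (SUg n F P.p) :=
  let L : Submonoid (SUg n F P.p) :=
    { carrier := {g | ∀ i j : Fin n, C.getD i false = false → C.getD j false = true →
        (S.toMat n Bi * mat g * S.toMat n B) i j = 0}
      one_mem' := fun i j hi hj => by
        have hij : i ≠ j := fun e => by rw [e, hj] at hi; exact Bool.noConfusion hi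
        rw [mat_one, mul_one, ← toMat_mul, hB, toMat_one, Matrix.one_apply, if_neg hij]
      mul_mem' := fun {a b} ha hb i j hi hj => by
        have e : S.toMat n Bi * mat (a * b) * S.toMat n B =
            (S.toMat n Bi * mat a * S.toMat n B) * (S.toMat n Bi * mat b * S.toMat n B) := by
          have h1 : S.toMat n B * S.toMat n Bi = 1 := by rw [← toMat_mul, hB', toMat_one]
          rw [mat_mul]
          calc S.toMat n Bi * (mat a * mat b) * S.toMat n B
              = S.toMat n Bi * mat a * 1 * mat b * S.toMat n B := by simp only [Matrix.mul_one, Matrix.mul_assoc]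
            _ = _ := by rw [← h1]; simp only [Matrix.mul_assoc]
        rw [e, Matrix.mul_apply]
        refine Finset.sum_eq_zero fun l _ => ?_
        by_cases hl : C.getD l false = true
        · rw [ha i l hi hl, zero_mul]
        · rw [hb l j (Bool.eq_false_iff.2 hl) hj, mul_zero] }
  { L with
    inv_mem' := fun {g} hg => by
      have hmem : g⁻¹ ∈ Submonoid.powers g := by
        rw [mem_powers_iff_mem_zpowers]; exact inv_mem (Subgroup.mem_zpowers g)
      exact (Submonoid.powers_le.2 hg) hmem }

/-- A lower bound for a group of more generators from a block stabiliser. -/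
theorem card_upto_ge [Finite F] (hg : P.gensOK n gens = true) {B Bi : List ℕ} {C : List Bool} {V : List (List ℕ)}
    {T : Tab} (hlet : ∀ e ∈ T.tree, e.2 < 2 * T.j) (h : P.sepBlock n gens T.j B Bi C V T.tree = true) :
    Nat.card (upto (S.gM n gens) (T.j - 1)) * (T.tree.length + 1) ≤ Nat.card (upto (S.gM n gens) T.j) := by
  have hp : 0 < P.p := by have := S.one_lt; omega
  simp only [Prm.sepBlock, Bool.and_eq_true, decide_eq_true_eq, List.all_eq_true, List.mem_range] at h
  obtain ⟨⟨⟨hB, hB'⟩, hgen⟩, hsep⟩ := h
  set g := S.gM n gens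
  have htest : ∀ (x : SUg n F P.p) (M : List ℕ), mat x = S.toMat n M →
      (x ∈ S.blockSub n B Bi C hB hB' ↔ P.blockTest n B Bi C M = true) := by
    intro x M hx
    have e : S.toMat n Bi * mat x * S.toMat n B = S.toMat n (P.mulM n (P.mulM n Bi M) B) := by
      rw [toMat_mul, toMat_mul, hx]
    have hent : ∀ i j : Fin n, (S.toMat n Bi * mat x * S.toMat n B) i j = 0 ↔
        Prm.ent n (P.mulM n (P.mulM n Bi M) B) i j = 0 := by
      intro i j
      rw [e]
      constructor
      · intro h0
        have hgd := P.good_mulM hp n (P.mulM n Bi M) B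
        simp only [Prm.good, Bool.and_eq_true, decide_eq_true_eq, List.all_eq_true] at hgd
        refine S.emb_inj ?_ (Nat.mul_pos hp hp) (by rw [emb_zero]; exact h0)
        rw [Prm.ent, List.getD_eq_getElem?_getD]
        cases he : (P.mulM n (P.mulM n Bi M) B)[n * (i : ℕ) + j]? with
        | none => exact Nat.mul_pos hp hp
        | some y => exact hgd.2 y (List.mem_of_getElem? he)
      · intro h0
        show S.emb _ = 0
        rw [h0, emb_zero]
    simp only [Prm.blockTest, List.all_eq_true, List.mem_range, Bool.or_eq_true, Bool.not_eq_true',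
      decide_eq_true_eq]
    constructor
    · intro hm i hi j hj
      by_cases h1 : C.getD i false = true
      · exact Or.inl (Or.inl h1)
      by_cases h2 : C.getD j false = true
      · exact Or.inr ((hent ⟨i, hi⟩ ⟨j, hj⟩).1 (hm ⟨i, hi⟩ ⟨j, hj⟩ (Bool.eq_false_iff.2 h1) h2))
      · exact Or.inl (Or.inr (Bool.eq_false_iff.2 h2))
    · intro hm i j hi hj
      refine (hent i j).2 ?_
      rcases hm i i.isLt j j.isLt with (h1 | h1) | h1
      · rw [hi] at h1; exact Bool.noConfusion h1
      · rw [hj] at h1; exact Bool.noConfusion h1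
      · exact h1
  refine card_ge_mul (L := S.blockSub n B Bi C hB hB') ?_ (Subgroup.closure_mono (Set.image_mono fun i hi => ?_))
    (fun u => (reps (lv g) T.tree).getD u 1) (fun u _ => ?_) (fun u hu v hv huv hmem => ?_)
  · refine (Subgroup.closure_le _).2 ?_
    rintro _ ⟨i, hi, rfl⟩
    exact (htest _ _ (S.mat_gM hg i)).2 (hgen i hi)
  · simp only [Set.mem_ofPred_eq] at hi ⊢; omega
  · have hall : ∀ (t : List (ℕ × ℕ)), (∀ e ∈ t, e.2 < 2 * T.j) → ∀ u, (reps (lv g) t).getD u 1 ∈ upto g T.j := by
      intro t
      induction t using List.reverseRecOn with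
      | nil => intro _ u; rcases u with _ | u <;> simp [reps]
      | append_singleton t e ih =>
        intro ht u
        have iht := ih fun e' he' => ht e' (List.mem_append_left _ he')
        rw [reps_concat]
        by_cases h : u < (reps (lv g) t).length
        · rw [List.getD_append _ _ _ _ h]; exact iht u
        · by_cases h' : u = (reps (lv g) t).length
          · subst h'
            rw [List.getD_append_right _ _ _ _ le_rfl, Nat.sub_self, List.getD_cons_zero]
            exact mul_mem (iht _) (lv_mem g (ht e (by simp)))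
          · rw [List.getD_eq_default _ _ (by simp; omega)]; exact one_mem _
    exact hall _ hlet u
  · set L := S.blockSub n B Bi C hB hB'
    have hX : ∀ w, S.toMat n (P.mulM n Bi ((P.repsM n gens T.tree).getD w (Prm.oneM n))) =
        S.toMat n Bi * mat ((reps (lv g) T.tree).getD w 1) := fun w => by rw [toMat_mul, S.mat_rep hg]
    have hhit : ∀ (w : ℕ) (v : List ℕ),
        P.hits n C (P.mulM n Bi ((P.repsM n gens T.tree).getD w (Prm.oneM n))) v = true ↔
        ∀ i : Fin n, C.getD i false = false →
          (S.toMat n Bi *ᵥ (mat ((reps (lv g) T.tree).getD w 1) *ᵥ fun k : Fin n => S.emb (v.getD k 0))) i = 0 := by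
      intro w v
      rw [Matrix.mulVec_mulVec, ← hX]
      have hd : ∀ i : Fin n,
          (S.toMat n (P.mulM n Bi ((P.repsM n gens T.tree).getD w (Prm.oneM n))) *ᵥ
            fun k : Fin n => S.emb (v.getD k 0)) i = S.emb (P.dotc n
              (fun k => Prm.ent n (P.mulM n Bi ((P.repsM n gens T.tree).getD w (Prm.oneM n))) i k)
              (fun k => v.getD k 0)) := fun i => by
        rw [Prm.dotc, emb_fold]
        simp [Matrix.mulVec, dotProduct, toMat, emb_mul]
      simp only [Prm.hits, List.all_eq_true, List.mem_range, Bool.or_eq_true, decide_eq_true_eq]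
      constructor
      · intro h i hi
        rcases h i i.isLt with h' | h'
        · rw [hi] at h'; exact Bool.noConfusion h'
        · rw [hd, h', emb_zero]
      · intro h i hi
        by_cases hc : C.getD i false = true
        · exact Or.inl hc
        · refine Or.inr (S.emb_inj (P.dotc_lt hp _ _ _) (Nat.mul_pos hp hp) ?_)
          rw [emb_zero, ← hd ⟨i, hi⟩]
          exact h ⟨i, hi⟩ (Bool.eq_false_iff.2 hc)
    have hinv : ∀ l ∈ L, ∀ y : Fin n → F, (∀ i : Fin n, C.getD i false = false → (S.toMat n Bi *ᵥ y) i = 0) →
        ∀ i : Fin n, C.getD i false = false → (S.toMat n Bi *ᵥ (mat l *ᵥ y)) i = 0 := by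
      intro l hl y hy i hi
      have h1 : S.toMat n B * S.toMat n Bi = 1 := by rw [← toMat_mul, hB', toMat_one]
      rw [Matrix.mulVec_mulVec, show S.toMat n Bi * mat l = S.toMat n Bi * mat l * S.toMat n B * S.toMat n Bi by
        rw [Matrix.mul_assoc (S.toMat n Bi * mat l), h1, Matrix.mul_one], ← Matrix.mulVec_mulVec]
      simp only [Matrix.mulVec, dotProduct]
      refine Finset.sum_eq_zero fun j _ => ?_
      by_cases hj : C.getD j false = true
      · rw [hl i j hi hj, zero_mul]
      · have e := hy j (Bool.eq_false_iff.2 hj)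
        simp only [Matrix.mulVec, dotProduct] at e
        rw [e, mul_zero]
    have hwv : ∀ (w w' : ℕ), (reps (lv g) T.tree).getD w 1 * ((reps (lv g) T.tree).getD w' 1)⁻¹ ∈ L →
        ∀ v : List ℕ, P.hits n C (P.mulM n Bi ((P.repsM n gens T.tree).getD w' (Prm.oneM n))) v = true →
          P.hits n C (P.mulM n Bi ((P.repsM n gens T.tree).getD w (Prm.oneM n))) v = true := by
      intro w w' hm v hv'
      rw [hhit] at hv' ⊢
      intro i hi
      have := hinv _ hm _ hv' i hi
      rwa [Matrix.mulVec_mulVec _ (mat (_ * _)), ← mat_mul, inv_mul_cancel_right] at this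
    have hmask : P.mask n C V (P.mulM n Bi ((P.repsM n gens T.tree).getD u (Prm.oneM n))) =
        P.mask n C V (P.mulM n Bi ((P.repsM n gens T.tree).getD v (Prm.oneM n))) := by
      refine List.map_congr_left fun x _ => Bool.eq_iff_iff.2 ⟨hwv v u ?_ x, hwv u v hmem x⟩
      simpa using inv_mem hmem
    have hlen := P.length_repsM n gens T.tree
    rw [List.getD_eq_getElem _ _ (by omega), List.getD_eq_getElem _ _ (by omega)] at hmask
    have := (List.Nodup.getElem_inj_iff hsep (hi := by simp; omega) (hj := by simp; omega)).1
      (show (List.map (fun M => Prm.encB (P.mask n C V (P.mulM n Bi M))) (P.repsM n gens T.tree))[u]'(by simp; omega) =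
          (List.map (fun M => Prm.encB (P.mask n C V (P.mulM n Bi M))) (P.repsM n gens T.tree))[v]'(by simp; omega) by
        simpa only [List.getElem_map] using congrArg Prm.encB hmask)
    omega

/-- Matching bounds give the presentation. -/
theorem hasPres_of_bounds [Finite F] (hg : P.gensOK n gens = true) {rels : List (List ℕ)}
    (hr : P.relsOK n gens rels = true) {a N : ℕ} (hlt : ∀ r ∈ rels, ∀ x ∈ r, x < 2 * a)
    (hup : ∀ {W : Type} [Group W] (g : ℕ → W), (∀ r ∈ rels, wv g r = 1) →
      Finite (upto g a) ∧ Nat.card (upto g a) ≤ N)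
    (hlo : N ≤ Nat.card (upto (S.gM n gens) a)) (hN : Nat.card (SUg n F P.p) ≤ N) :
    HasPres (SUg n F P.p) a rels.length := by
  classical
  let φ : ℕ → FreeGroup (Fin a) := fun i => if h : i < a then FreeGroup.of ⟨i, h⟩ else 1
  refine ⟨(rels.map (wv φ)).toFinset, (List.toFinset_card_le _).trans (by simp), ?_⟩
  rw [List.coe_toFinset]
  set R : Set (FreeGroup (Fin a)) := {x | x ∈ rels.map (wv φ)}
  let g : ℕ → PresentedGroup R := fun i => PresentedGroup.mk R (φ i)
  have hrelP : ∀ r ∈ rels, wv g r = 1 := fun r hr' => by
    rw [← map_wv (PresentedGroup.mk R) φ r]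
    exact PresentedGroup.one_of_mem (List.mem_map.2 ⟨r, hr', rfl⟩)
  obtain ⟨hfin, hcard⟩ := hup g hrelP
  have htop : upto g a = ⊤ := by
    rw [eq_top_iff, ← PresentedGroup.closure_range_of, Subgroup.closure_le]
    rintro _ ⟨i, rfl⟩
    refine Subgroup.subset_closure ⟨i, i.isLt, ?_⟩
    simp [g, φ]
    rfl
  have : Finite (PresentedGroup R) := by
    have := hfin
    exact Finite.of_surjective (Subgroup.subtype (upto g a)) fun x => ⟨⟨x, htop ▸ Subgroup.mem_top x⟩, rfl⟩
  rw [htop, Subgroup.card_top] at hcard
  have hrelM : ∀ x ∈ R, FreeGroup.lift (fun i : Fin a => S.gM n gens i) x = 1 := by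
    intro x hx
    obtain ⟨r, hr', rfl⟩ := List.mem_map.1 hx
    rw [map_wv (FreeGroup.lift fun i : Fin a => S.gM n gens i) φ r, ← S.wv_eq_one hg hr r hr', wv, wv]
    have hlet : ∀ x ∈ r, lv (fun i => FreeGroup.lift (fun i : Fin a => S.gM n gens i) (φ i)) x =
        lv (S.gM n gens) x ∨ ¬ x / 2 < a := fun x _ => by
      by_cases hx : x / 2 < a
      · left; simp only [lv, φ, dif_pos hx, FreeGroup.lift_apply_of]
      · exact Or.inr hx
    congr 1
    refine List.map_congr_left fun x hx => (hlet x hx).resolve_right fun hna => hna ?_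
    have := hlt r hr' x hx
    omega
  let π := PresentedGroup.toGroup hrelM
  have hsurj : Function.Surjective π := by
    rw [← MonoidHom.range_eq_top]
    refine Subgroup.eq_top_of_card_eq _ (le_antisymm (Subgroup.card_le_card_group _) (hN.trans (hlo.trans ?_)))
    refine Subgroup.card_le_of_le ?_
    rw [upto, Subgroup.closure_le]
    rintro _ ⟨i, hi, rfl⟩
    exact ⟨PresentedGroup.of ⟨i, hi⟩, PresentedGroup.toGroup.of hrelM⟩
  have hbij : Function.Bijective π := by
    refine ⟨?_, hsurj⟩
    have := Fintype.ofFinite (PresentedGroup R)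
    have hle : Nat.card (PresentedGroup R) ≤ Nat.card (SUg n F P.p) := by
      refine hcard.trans (hlo.trans (Subgroup.card_le_card_group _))
    exact ((Nat.bijective_iff_surjective_and_card π).2 ⟨hsurj,
      le_antisymm hle (Nat.card_le_card_of_surjective π hsurj)⟩).1
  exact ⟨MulEquiv.ofBijective π hbij⟩

end Setup

end CfsgLib.SUPres.Base
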