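import Cfsg.Agent.Lib.SUAmalgam.Basic

/-!
Kernel-computable matrices over a field with `p ^ 2` elements, written as `a + b i` with `i * i = r₀ + r₁ i` and coded
by the number `a + p b`, and their images in `SU n F p`.
-/

set_option autoImplicit false
set_option linter.unusedSectionVars false

namespace CfsgLib.SUPres.Base

open CfsgLib.SUAmalgam Matrix

/-- The parameters of a quadratic extension. -/
structure Prm where
  /-- characteristic -/
  p : ℕ
  /-- constant -/
  r0 : ℕ
  /-- linear coefficient -/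
  r1 : ℕ

namespace Prm

variable (P : Prm)

/-- A code. -/
def code (a b : ℕ) : ℕ := a % P.p + P.p * (b % P.p)

/-- Sum. -/
def addc (x y : ℕ) : ℕ := P.code (x % P.p + y % P.p) (x / P.p + y / P.p)

/-- Product. -/
def mulc (x y : ℕ) : ℕ :=
  P.code (x % P.p * (y % P.p) + P.r0 * (x / P.p * (y / P.p)))
    (x % P.p * (y / P.p) + x / P.p * (y % P.p) + P.r1 * (x / P.p * (y / P.p)))

/-- Conjugate. -/
def conjc (x : ℕ) : ℕ := P.code (x % P.p + P.r1 * (x / P.p)) ((P.p - 1) * (x / P.p))

/-- An entry. -/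
def ent (n : ℕ) (M : List ℕ) (i j : ℕ) : ℕ := M.getD (n * i + j) 0

/-- A dot product. -/
def dotc (n : ℕ) (f g : ℕ → ℕ) : ℕ := (List.range n).foldl (fun t k => P.addc t (P.mulc (f k) (g k))) 0

/-- The matrix product. -/
def mulM (n : ℕ) (M N : List ℕ) : List ℕ :=
  (List.range (n * n)).map fun e => P.dotc n (fun k => ent n M (e / n) k) (fun k => ent n N k (e % n))

/-- The identity. -/
def oneM (n : ℕ) : List ℕ := (List.range (n * n)).map fun e => if e / n = e % n then 1 else 0

/-- The conjugate transpose. -/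
def starM (n : ℕ) (M : List ℕ) : List ℕ :=
  (List.range (n * n)).map fun e => P.conjc (ent n M (e % n) (e / n))

/-- The determinant. -/
def detc : ℕ → (ℕ → ℕ → ℕ) → ℕ
  | 0, _ => 1
  | n + 1, f => (List.range (n + 1)).foldl (fun t j => P.addc t
      (P.mulc (if j % 2 = 0 then f 0 j else P.mulc (P.p - 1) (f 0 j))
        (detc n fun a b => f (a + 1) (if b < j then b else b + 1)))) 0

/-- A reduced list of codes of the right length. -/
def good (n : ℕ) (M : List ℕ) : Bool := decide (M.length = n * n) && M.all fun x => decide (x < P.p * P.p)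

/-- A special unitary matrix. -/
def isSU (n : ℕ) (M : List ℕ) : Bool :=
  P.good n M && decide (P.mulM n (P.starM n M) M = oneM n) && decide (P.detc n (ent n M) = 1)

/-- Differences of distinct codes are invertible. -/
def sep : Prop :=
  ∀ x < P.p * P.p, ∀ y < P.p * P.p, x ≠ y → ∃ z < P.p * P.p, P.mulc (P.addc x (P.mulc (P.p - 1) y)) z = 1

end Prm

variable (F : Type*) [Field F]

/-- A field element playing the part of `i`. -/
structure Setup (P : Prm) where
  /-- the element -/
  i : F
  one_lt : 1 < P.p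
  cast : (P.p : F) = 0
  prime : Nat.Prime P.p
  sq : i * i = P.r0 + P.r1 * i
  conj : i ^ P.p = P.r1 - i
  sep : P.sep

variable {F} {P : Prm} (S : Setup F P)

namespace Setup

/-- The value of a code. -/
def emb (x : ℕ) : F := ((x % P.p : ℕ) : F) + ((x / P.p : ℕ) : F) * S.i

include S in
theorem cast_mod (a : ℕ) : ((a % P.p : ℕ) : F) = a := by
  conv_rhs => rw [← Nat.mod_add_div a P.p]
  push_cast
  rw [S.cast]; ring

theorem emb_code (a b : ℕ) : S.emb (P.code a b) = a + b * S.i := by
  have hp : 0 < P.p := by have := S.one_lt; omega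
  have h1 : P.code a b % P.p = a % P.p := by
    rw [Prm.code, Nat.add_mul_mod_self_left, Nat.mod_mod]
  have h2 : P.code a b / P.p = b % P.p := by
    rw [Prm.code, Nat.add_mul_div_left _ _ hp, Nat.div_eq_of_lt (Nat.mod_lt _ hp), zero_add]
  rw [emb, h1, h2, S.cast_mod, S.cast_mod]

theorem emb_add (x y : ℕ) : S.emb (P.addc x y) = S.emb x + S.emb y := by
  rw [Prm.addc, emb_code, emb, emb]; push_cast; ring

theorem emb_mul (x y : ℕ) : S.emb (P.mulc x y) = S.emb x * S.emb y := by
  rw [Prm.mulc, emb_code, emb, emb]; push_cast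
  linear_combination -(((x / P.p : ℕ) : F) * ((y / P.p : ℕ) : F)) * S.sq

theorem emb_zero : S.emb 0 = 0 := by simp [emb]

theorem emb_one : S.emb 1 = 1 := by
  simp [emb, Nat.mod_eq_of_lt S.one_lt, Nat.div_eq_of_lt S.one_lt]

theorem emb_neg_one : S.emb (P.p - 1) = -1 := by
  have h := S.one_lt
  rw [emb, Nat.mod_eq_of_lt (show P.p - 1 < P.p by omega), Nat.div_eq_of_lt (show P.p - 1 < P.p by omega),
    Nat.cast_sub (by omega), S.cast]
  simp

include S in
theorem charP : CharP F P.p := by
  obtain ⟨r, hr⟩ := CharP.exists F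
  have : r ∣ P.p := (CharP.cast_eq_zero_iff F r P.p).1 S.cast
  rcases (Nat.dvd_prime S.prime).1 this with rfl | rfl
  · exact absurd rfl (CharP.char_ne_one F 1)
  · exact hr

theorem emb_conj (x : ℕ) : S.emb (P.conjc x) = S.emb x ^ P.p := by
  have := S.charP
  have := Fact.mk S.prime
  have hN : ∀ a : ℕ, (a : F) ^ P.p = a := fun a => by
    rw [← frobenius_def, map_natCast]
  rw [Prm.conjc, emb_code, emb, add_pow_char, mul_pow, hN, hN, S.conj]
  push_cast [Nat.cast_sub (show 1 ≤ P.p by have := S.one_lt; omega)]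
  rw [S.cast]; ring

theorem emb_inj {x y : ℕ} (hx : x < P.p * P.p) (hy : y < P.p * P.p) (h : S.emb x = S.emb y) : x = y := by
  by_contra hne
  obtain ⟨z, -, hz⟩ := S.sep x hx y hy hne
  have := congrArg S.emb hz
  rw [emb_mul, emb_add, emb_mul, emb_neg_one, emb_one, h] at this
  simp at this

/-- The matrix of a list. -/
def toMat (n : ℕ) (M : List ℕ) : Matrix (Fin n) (Fin n) F := Matrix.of fun a b => S.emb (Prm.ent n M a b)

theorem ent_map {n : ℕ} (f : ℕ → ℕ) (a b : Fin n) :
    Prm.ent n ((List.range (n * n)).map f) a b = f (n * a + b) := by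
  have hlt : n * (a : ℕ) + b < n * n := by
    have := a.isLt; have := b.isLt
    calc n * (a : ℕ) + b < n * (a : ℕ) + n := by omega
      _ = n * ((a : ℕ) + 1) := by ring
      _ ≤ n * n := Nat.mul_le_mul_left n (by omega)
  rw [Prm.ent, List.getD_eq_getElem _ _ (by simpa using hlt)]
  simp

include S in
theorem idx {n : ℕ} (a b : Fin n) : (n * (a : ℕ) + b) / n = a ∧ (n * (a : ℕ) + b) % n = b := by
  have := b.isLt
  exact ⟨by rw [Nat.mul_add_div (by omega), Nat.div_eq_of_lt b.isLt, add_zero],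
    by rw [Nat.mul_add_mod, Nat.mod_eq_of_lt b.isLt]⟩

theorem emb_fold (n : ℕ) (g : ℕ → ℕ) :
    S.emb ((List.range n).foldl (fun t k => P.addc t (g k)) 0) = ∑ k : Fin n, S.emb (g k) := by
  rw [Fin.sum_univ_eq_sum_range (fun k => S.emb (g k))]
  induction n with
  | zero => simp [emb_zero]
  | succ n ih => rw [List.range_succ, List.foldl_append, List.foldl_cons, List.foldl_nil, emb_add, ih,
      Finset.sum_range_succ]

theorem toMat_mul (n : ℕ) (M N : List ℕ) : S.toMat n (P.mulM n M N) = S.toMat n M * S.toMat n N := by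
  ext a b
  rw [Matrix.mul_apply]
  simp only [toMat, Matrix.of_apply, Prm.mulM, ent_map]
  obtain ⟨h1, h2⟩ := S.idx a b
  rw [h1, h2, Prm.dotc, emb_fold]
  simp only [emb_mul]

theorem toMat_one (n : ℕ) : S.toMat n (Prm.oneM n) = 1 := by
  ext a b
  simp only [toMat, Matrix.of_apply, Prm.oneM, ent_map, Matrix.one_apply]
  obtain ⟨h1, h2⟩ := S.idx a b
  rw [h1, h2]
  by_cases h : a = b
  · simp [h, emb_one]
  · rw [if_neg (fun e => h (Fin.ext e)), if_neg h, emb_zero]

theorem toMat_star (n : ℕ) (M : List ℕ) :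
    S.toMat n (P.starM n M) = ((S.toMat n M).map (· ^ P.p))ᵀ := by
  ext a b
  simp only [toMat, Matrix.of_apply, Prm.starM, ent_map, Matrix.transpose_apply, Matrix.map_apply]
  obtain ⟨h1, h2⟩ := S.idx a b
  rw [h1, h2, emb_conj]

theorem toMat_inj {n : ℕ} {M N : List ℕ} (hM : P.good n M = true) (hN : P.good n N = true)
    (h : S.toMat n M = S.toMat n N) : M = N := by
  simp only [Prm.good, Bool.and_eq_true, decide_eq_true_eq, List.all_eq_true] at hM hN
  refine List.ext_getElem (hM.1.trans hN.1.symm) fun e h1 h2 => ?_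
  have hn : e < n * n := hM.1 ▸ h1
  have h0 : 0 < n := by rcases Nat.eq_zero_or_pos n with rfl | h <;> omega
  have := congrFun (congrFun h ⟨e / n, Nat.div_lt_of_lt_mul hn⟩) ⟨e % n, Nat.mod_lt _ h0⟩
  simp only [toMat, Matrix.of_apply, Prm.ent, Nat.div_add_mod] at this
  rw [List.getD_eq_getElem _ _ h1, List.getD_eq_getElem _ _ h2] at this
  exact S.emb_inj (hM.2 _ (List.getElem_mem _)) (hN.2 _ (List.getElem_mem _)) this

theorem det_eq : ∀ (n : ℕ) (f : ℕ → ℕ → ℕ),
    S.emb (P.detc n f) = (Matrix.of fun a b : Fin n => S.emb (f a b)).det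
  | 0, f => by simp [Prm.detc, emb_one]
  | n + 1, f => by
    rw [Prm.detc, emb_fold, Matrix.det_succ_row_zero]
    refine Finset.sum_congr rfl fun j _ => ?_
    rw [emb_mul, det_eq n]
    congr 1
    · rcases Nat.even_or_odd (j : ℕ) with h | h
      · rw [if_pos (Nat.even_iff.1 h), h.neg_one_pow, one_mul]; simp
      · rw [if_neg (by rw [Nat.odd_iff.1 h]; omega), h.neg_one_pow, emb_mul, emb_neg_one]; simp
    · congr 1
      ext a b
      simp only [Matrix.submatrix_apply, Matrix.of_apply, Fin.val_succ]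
      congr 2
      rcases lt_or_ge (b : ℕ) j with h | h
      · rw [if_pos h, Fin.succAbove_of_castSucc_lt _ _ (Fin.lt_def.2 (by simpa using h))]; simp
      · rw [if_neg (by omega), Fin.succAbove_of_le_castSucc _ _ (Fin.le_def.2 (by simpa using h))]; simp

theorem herm_of_isSU {n : ℕ} {M : List ℕ} (h : P.isSU n M = true) (x y : Fin n → F) :
    Cfsg.hermForm n F P.p (S.toMat n M *ᵥ x) (S.toMat n M *ᵥ y) = Cfsg.hermForm n F P.p x y := by
  have := S.charP
  have := Fact.mk S.prime
  simp only [Prm.isSU, Bool.and_eq_true, decide_eq_true_eq] at h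
  have h1 := congrArg (S.toMat n) h.1.2
  rw [toMat_mul, toMat_one, toMat_star] at h1
  set A := S.toMat n M
  have h2 : Aᵀ * A.map (· ^ P.p) = 1 := by
    have := congrArg Matrix.transpose h1
    rwa [Matrix.transpose_mul, Matrix.transpose_transpose, Matrix.transpose_one] at this
  have hpow : (fun a => (A *ᵥ y) a ^ P.p) = A.map (· ^ P.p) *ᵥ fun a => y a ^ P.p := by
    funext a
    simp only [Matrix.mulVec, dotProduct, Matrix.map_apply]
    rw [sum_pow_char]
    simp [mul_pow]
  show (A *ᵥ x) ⬝ᵥ (fun a => (A *ᵥ y) a ^ P.p) = x ⬝ᵥ fun a => y a ^ P.p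
  rw [hpow, Matrix.dotProduct_mulVec, ← Matrix.mulVec_transpose, Matrix.mulVec_mulVec]
  have h3 : (A.map (· ^ P.p))ᵀ * A = 1 := h1
  rw [h3, Matrix.one_mulVec]

/-- The element of `SU n F p`. -/
def toSU {n : ℕ} {M : List ℕ} (h : P.isSU n M = true) : SUg n F P.p :=
  SUAmalgam.mk (S.toMat n M) (by
    simp only [Prm.isSU, Bool.and_eq_true, decide_eq_true_eq] at h
    have := S.det_eq n (Prm.ent n M)
    rw [h.2, emb_one] at this
    exact this.symm) (S.herm_of_isSU h)

end Setup

end CfsgLib.SUPres.Base
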